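import Mathlib

/-! Commuting data in the special linear group of degree three over the field with three elements. -/

set_option autoImplicit false

namespace Cfsg.Agent.GC.CGr

open Subgroup Matrix

abbrev L : Type := SpecialLinearGroup (Fin 3) (ZMod 3)

/-- An involution. -/
def t0 : L := ⟨!![2, 0, 0; 0, 2, 0; 0, 0, 1], by rw [det_fin_three]; decide⟩
/-- A second involution. -/
def y0 : L := ⟨!![1, 0, 0; 0, 2, 0; 0, 0, 2], by rw [det_fin_three]; decide⟩
/-- A conjugating element. -/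
def p0 : L := ⟨!![0, 0, 1; 0, 2, 0; 1, 0, 0], by rw [det_fin_three]; decide⟩
/-- An element of order 13. -/
def a0 : L := ⟨!![0, 0, 1; 1, 0, 1; 0, 1, 0], by rw [det_fin_three]; decide⟩

theorem p0_y0 : p0 * y0 * p0⁻¹ = t0 := by
  rw [mul_inv_eq_iff_eq_mul]; exact Subtype.ext (by decide)

/-- Coordinates in the centralizer of the involution. -/
abbrev T : Type := {v : ZMod 3 × ZMod 3 × ZMod 3 × ZMod 3 × ZMod 3 //
  (v.1 * v.2.2.2.1 - v.2.1 * v.2.2.1) * v.2.2.2.2 = 1}

/-- The block matrix. -/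
def blk (v : T) : L := ⟨!![v.1.1, v.1.2.1, 0; v.1.2.2.1, v.1.2.2.2.1, 0; 0, 0, v.1.2.2.2.2], by
  rw [det_fin_three]; simp; linear_combination v.2⟩

theorem mul_ent (g h : L) (i j : Fin 3) :
    (g * h).1 i j = g.1 i 0 * h.1 0 j + g.1 i 1 * h.1 1 j + g.1 i 2 * h.1 2 j :=
  Fin.sum_univ_three fun k => g.1 i k * h.1 k j

theorem ent {g h : L} (e : g * h = h * g) (i j : Fin 3) : g.1 i 0 * h.1 0 j + g.1 i 1 * h.1 1 j + g.1 i 2 * h.1 2 j =
    h.1 i 0 * g.1 0 j + h.1 i 1 * g.1 1 j + h.1 i 2 * g.1 2 j := by rw [← mul_ent, e, mul_ent]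

theorem blk_inj : Function.Injective blk := fun v w h => by
  have e := fun i j => congrArg (fun g : L => g.1 i j) h
  exact Subtype.ext (Prod.ext (e 0 0) (Prod.ext (e 0 1) (Prod.ext (e 1 0) (Prod.ext (e 1 1) (e 2 2)))))

/-- Commuting coordinates. -/
def cm (v w : T) : Prop := v.1.2.1 * w.1.2.2.1 = w.1.2.1 * v.1.2.2.1 ∧
  v.1.1 * w.1.2.1 + v.1.2.1 * w.1.2.2.2.1 = w.1.1 * v.1.2.1 + w.1.2.1 * v.1.2.2.2.1 ∧
  v.1.2.2.1 * w.1.1 + v.1.2.2.2.1 * w.1.2.2.1 = w.1.2.2.1 * v.1.1 + w.1.2.2.2.1 * v.1.2.2.1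

instance decCm (v w : T) : Decidable (cm v w) := instDecidableAnd

theorem cm_of {v w : T} (h : blk v * blk w = blk w * blk v) : cm v w := by
  have e1 := ent h 0 0
  have e2 := ent h 0 1
  have e3 := ent h 1 0
  simp only [blk, of_apply, cons_val', cons_val_zero, cons_val_one, cons_val, cons_val_fin_one] at e1 e2 e3
  exact ⟨by linear_combination e1, by linear_combination e2, by linear_combination e3⟩

theorem mem_cent {g : L} : g * t0 = t0 * g ↔ ∃ v, blk v = g := by
  refine ⟨fun h => ?_, fun ⟨v, h⟩ => h ▸ Subtype.ext ?_⟩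
  · have e1 := ent h 0 2
    have e2 := ent h 1 2
    have e3 := ent h 2 0
    have e4 := ent h 2 1
    simp only [t0, of_apply, cons_val', cons_val_zero, cons_val_one, cons_val, cons_val_fin_one] at e1 e2 e3 e4
    have k1 : g.1 0 2 = 0 := by linear_combination -e1
    have k2 : g.1 1 2 = 0 := by linear_combination -e2
    have k3 : g.1 2 0 = 0 := by linear_combination e3
    have k4 : g.1 2 1 = 0 := by linear_combination e4
    have d := g.2
    rw [det_fin_three, k1, k2, k3, k4] at d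
    refine ⟨⟨(g.1 0 0, g.1 0 1, g.1 1 0, g.1 1 1, g.1 2 2), by linear_combination d⟩, Subtype.ext ?_⟩
    ext i j
    fin_cases i <;> fin_cases j
    exacts [rfl, rfl, k1.symm, rfl, rfl, k2.symm, k3.symm, k4.symm, rfl]
  · ext i j
    rw [mul_ent, mul_ent]
    fin_cases i <;> fin_cases j <;> simp [blk, t0, mul_comm]

theorem card_T : Nat.card T = 48 := by rw [Nat.card_eq_fintype_card]; decide +kernel

theorem le8 : ∀ v : T, v.1 ≠ (1, 0, 0, 1, 1) → v.1 ≠ (2, 0, 0, 2, 1) →
    (Finset.univ.filter fun w => cm w v).card ≤ 8 := by decide +kernel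

theorem le4 : (Finset.univ.filter fun w => cm w ⟨(1, 0, 0, 2, 2), by decide⟩).card ≤ 4 := by decide +kernel

theorem card_inf (v : T) :
    Nat.card {g : L // g * t0 = t0 * g ∧ g * blk v = blk v * g} ≤ (Finset.univ.filter fun w => cm w v).card := by
  rw [← Fintype.card_subtype, ← Nat.card_eq_fintype_card]
  choose c hc using fun g : {g : L // g * t0 = t0 * g ∧ g * blk v = blk v * g} => mem_cent.1 g.2.1
  exact Nat.card_le_card_of_injective (fun g => ⟨c g, cm_of (by rw [hc]; exact g.2.2)⟩) fun g h e =>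
    Subtype.ext ((hc g).symm.trans ((congrArg blk (Subtype.mk.inj e)).trans (hc h)))

theorem card_a0 : Nat.card {g : L // g * a0 = a0 * g} ≤ 13 := by
  have key : Nat.card {v : ZMod 3 × ZMod 3 × ZMod 3 // (!![v.1, v.2.2, v.2.1; v.2.1, v.1 + v.2.2, v.2.1 + v.2.2;
      v.2.2, v.2.1, v.1 + v.2.2] : Matrix (Fin 3) (Fin 3) (ZMod 3)).det = 1} = 13 := by
    simp only [det_fin_three]
    rw [Nat.card_eq_fintype_card]; decide +kernel
  have h : ∀ g : {g : L // g * a0 = a0 * g}, g.1.1 = !![g.1 0 0, g.1 2 0, g.1 1 0;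
      g.1 1 0, g.1 0 0 + g.1 2 0, g.1 1 0 + g.1 2 0; g.1 2 0, g.1 1 0, g.1 0 0 + g.1 2 0] := fun g => by
    have e1 := ent g.2 0 0
    have e2 := ent g.2 1 0
    have e3 := ent g.2 2 0
    have e4 := ent g.2 0 1
    have e5 := ent g.2 1 1
    have e6 := ent g.2 2 1
    simp only [a0, of_apply, cons_val', cons_val_zero, cons_val_one, cons_val, cons_val_fin_one, mul_zero, zero_mul,
      mul_one, one_mul, add_zero, zero_add] at e1 e2 e3 e4 e5 e6
    ext i j
    fin_cases i <;> fin_cases j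
    exacts [rfl, e1, e4.trans e3, rfl, e2, e5.trans (by rw [e1, e3, add_comm]; rfl), rfl, e3, e6.trans e2]
  rw [← key]
  exact Nat.card_le_card_of_injective (fun g => ⟨(g.1 0 0, g.1 1 0, g.1 2 0), (h g ▸ g.1.2 :)⟩) fun g g' e => by
    obtain ⟨e1, e2, e3⟩ : g.1 0 0 = g'.1 0 0 ∧ g.1 1 0 = g'.1 1 0 ∧ g.1 2 0 = g'.1 2 0 := by simpa using e
    exact Subtype.ext (Subtype.ext (by rw [h g, h g', e1, e2, e3]))

theorem card_a0' : Nat.card (centralizer ({a0} : Set L)) = 13 := by
  have := Fact.mk (show Nat.Prime 13 by norm_num)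
  have h1 : orderOf a0 = 13 := orderOf_eq_prime (Subtype.ext (by decide +kernel))
    fun h => absurd (congrArg Subtype.val h) (by decide)
  refine le_antisymm ((Nat.card_congr (Equiv.subtypeEquivRight fun g => mem_centralizer_singleton_iff)).trans_le
    card_a0) ?_
  rw [← h1, ← Nat.card_zpowers]
  exact card_le_of_le (zpowers_le.2 (mem_centralizer_singleton_iff.2 rfl))

variable {H : Type*} [Group H]

/-- A bijection preserving commutation. -/
structure CG (F : H ≃ L) : Prop where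
  one : F 1 = 1
  comm : ∀ x y, x * y = y * x ↔ F x * F y = F y * F x

theorem CG.conj {F : H ≃ L} (h : CG F) (p : L) : CG (F.trans (MulAut.conj p).toEquiv) :=
  ⟨by simp [h.one], fun x y => (h.comm x y).trans (by
    change _ ↔ MulAut.conj p (F x) * MulAut.conj p (F y) = MulAut.conj p (F y) * MulAut.conj p (F x)
    rw [← map_mul (MulAut.conj p), ← map_mul (MulAut.conj p), (MulAut.conj p).injective.eq_iff])⟩

variable {F : H ≃ L} (h : CG F) {z : H} (hz : F z = t0)
include h

theorem CG.card_cent (x : H) : Nat.card (centralizer ({x} : Set H)) = Nat.card (centralizer ({F x} : Set L)) :=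
  Nat.card_congr (F.subtypeEquiv fun y => by
    rw [mem_centralizer_singleton_iff, mem_centralizer_singleton_iff, h.comm])

include hz

theorem CG.c48 : Nat.card (centralizer ({z} : Set H)) = 48 := by
  rw [h.card_cent, hz, ← card_T]
  exact (Nat.card_congr (Equiv.ofBijective (fun v => ⟨blk v, mem_centralizer_singleton_iff.2 (mem_cent.2 ⟨v, rfl⟩)⟩)
    ⟨fun v w e => blk_inj (Subtype.mk.inj e), fun g => (mem_cent.1 (mem_centralizer_singleton_iff.1 g.2)).imp
      fun _ e => Subtype.ext e⟩)).symm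

theorem CG.inf_le {u : H} {v : T} (e : blk v = F u) :
    Nat.card (centralizer {z} ⊓ centralizer {u} : Subgroup H) ≤ (Finset.univ.filter fun w => cm w v).card :=
  (Nat.card_congr (F.subtypeEquiv fun y => by
    rw [mem_inf, mem_centralizer_singleton_iff, mem_centralizer_singleton_iff, h.comm, h.comm, hz, e])).trans_le
    (card_inf v)

theorem CG.c8 {u : H} (hu : u * z = z * u) (h1 : u ≠ 1) (h2 : u ≠ z) :
    Nat.card (centralizer {z} ⊓ centralizer {u} : Subgroup H) ≤ 8 := by
  obtain ⟨v, e⟩ := mem_cent.1 (hz ▸ (h.comm u z).1 hu)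
  refine (h.inf_le hz e).trans (le8 v (fun k => h1 (F.injective ?_)) fun k => h2 (F.injective ?_))
  · rw [← e, h.one, show v = ⟨_, by decide⟩ from Subtype.ext k]; exact Subtype.ext (by decide)
  · rw [← e, hz, show v = ⟨_, by decide⟩ from Subtype.ext k]; exact Subtype.ext (by decide)

theorem CG.ne_one : z ≠ 1 := fun e => absurd (congrArg Subtype.val (hz.symm.trans (e ▸ h.one))) (by decide)

theorem CG.two : orderOf z = 2 := orderOf_eq_prime (by_contra fun h1 => by
  have hc : z ^ 2 * z = z * z ^ 2 := by group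
  have := h.c8 hz hc h1 fun e => h.ne_one hz (by simpa [sq] using e)
  rw [inf_eq_left.2 fun g hg => mem_centralizer_singleton_iff.2
    (Commute.pow_right (mem_centralizer_singleton_iff.1 hg) 2), h.c48 hz] at this
  omega) (h.ne_one hz)

theorem CG.exists_y : ∃ y, orderOf y = 2 ∧ y * z = z * y ∧ y ≠ z ∧
    Nat.card (centralizer {z} ⊓ centralizer {y} : Subgroup H) ≤ 4 :=
  ⟨F.symm y0, (h.conj p0).two (by simp [p0_y0]), (h.comm _ _).2 (by
      rw [hz, F.apply_symm_apply]; exact Subtype.ext (by decide)),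
    fun e => absurd (congrArg Subtype.val ((F.apply_symm_apply y0).symm.trans (e ▸ hz))) (by decide),
    (h.inf_le hz (by rw [F.apply_symm_apply]; exact Subtype.ext (by decide))).trans le4⟩

end Cfsg.Agent.GC.CGr
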