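import Mathlib

/-! The quotient of the unitriangular group of degree five over the field with two elements by its centre. -/

set_option autoImplicit false

namespace Cfsg.Agent.GC

open Subgroup
open scoped commutatorElement

/-- Unitriangular matrices of degree five without their corner entry. -/
@[ext] structure M9 where
  p : ZMod 2
  q : ZMod 2
  r : ZMod 2
  u : ZMod 2
  v : ZMod 2
  w : ZMod 2
  a : ZMod 2
  b : ZMod 2
  c : ZMod 2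
  deriving DecidableEq

namespace M9

instance instFintypeM9 : Fintype M9 := Fintype.ofEquiv
  ((ZMod 2 × ZMod 2 × ZMod 2) × (ZMod 2 × ZMod 2 × ZMod 2) × ZMod 2 × ZMod 2 × ZMod 2)
  ⟨fun x => ⟨x.1.1, x.1.2.1, x.1.2.2, x.2.1.1, x.2.1.2.1, x.2.1.2.2, x.2.2.1, x.2.2.2.1, x.2.2.2.2⟩,
    fun x => ((x.p, x.q, x.r), (x.u, x.v, x.w), x.a, x.b, x.c), fun _ => rfl, fun _ => rfl⟩

instance instMulM9 : Mul M9 := ⟨fun x y => ⟨x.p + y.p, x.q + y.q + x.p * y.a, x.r + y.r + x.p * y.c + x.q * y.b,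
  x.u + y.u + x.a * y.v + x.c * y.w, x.v + y.v + x.b * y.w, x.w + y.w, x.a + y.a, x.b + y.b, x.c + y.c + x.a * y.b⟩⟩
instance instOneM9 : One M9 := ⟨⟨0, 0, 0, 0, 0, 0, 0, 0, 0⟩⟩
instance instInvM9 : Inv M9 := ⟨fun x => ⟨-x.p, -x.q + x.p * x.a, -x.r + x.p * x.c + x.q * x.b - x.p * x.a * x.b,
  -x.u + x.a * x.v + x.c * x.w - x.a * x.b * x.w, -x.v + x.b * x.w, -x.w, -x.a, -x.b, -x.c + x.a * x.b⟩⟩

theorem mul_def (x y : M9) : x * y = ⟨x.p + y.p, x.q + y.q + x.p * y.a, x.r + y.r + x.p * y.c + x.q * y.b,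
  x.u + y.u + x.a * y.v + x.c * y.w, x.v + y.v + x.b * y.w, x.w + y.w, x.a + y.a, x.b + y.b,
  x.c + y.c + x.a * y.b⟩ := rfl
theorem one_def : (1 : M9) = ⟨0, 0, 0, 0, 0, 0, 0, 0, 0⟩ := rfl
theorem inv_def (x : M9) : x⁻¹ = ⟨-x.p, -x.q + x.p * x.a, -x.r + x.p * x.c + x.q * x.b - x.p * x.a * x.b,
  -x.u + x.a * x.v + x.c * x.w - x.a * x.b * x.w, -x.v + x.b * x.w, -x.w, -x.a, -x.b, -x.c + x.a * x.b⟩ := rfl

instance instGroupM9 : Group M9 := Group.ofLeftAxioms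
  (fun x y z => by ext <;> simp only [mul_def] <;> ring)
  (fun x => by ext <;> simp only [mul_def, one_def] <;> ring)
  (fun x => by ext <;> simp only [mul_def, one_def, inv_def] <;> ring)

theorem card_M9 : Nat.card M9 = 512 := by rw [Nat.card_eq_fintype_card]; decide +kernel

/-- The abelian subgroup of order 64. -/
def A0 : Subgroup M9 where
  carrier := {x | x.a = 0 ∧ x.b = 0 ∧ x.c = 0}
  one_mem' := ⟨rfl, rfl, rfl⟩
  mul_mem' := by rintro x y ⟨h1, h2, h3⟩ ⟨h4, h5, h6⟩; simp [mul_def, *]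
  inv_mem' := by rintro x ⟨h1, h2, h3⟩; simp [inv_def, *]

theorem mem_A0 {x : M9} : x ∈ A0 ↔ x.a = 0 ∧ x.b = 0 ∧ x.c = 0 := Iff.rfl

instance decA0 : DecidablePred (· ∈ A0) := fun _ => instDecidableAnd

/-- The first four-group. -/
def Va : Subgroup M9 where
  carrier := {x | x.b = 0}
  one_mem' := rfl
  mul_mem' := by intro x y h1 h2; simp_all [mul_def]
  inv_mem' := by intro x h1; simp_all [inv_def]

/-- The second four-group. -/
def Vb : Subgroup M9 where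
  carrier := {x | x.a = 0}
  one_mem' := rfl
  mul_mem' := by intro x y h1 h2; simp_all [mul_def]
  inv_mem' := by intro x h1; simp_all [inv_def]

instance decVa : DecidablePred (· ∈ Va) := fun x => inferInstanceAs (Decidable (x.b = 0))
instance decVb : DecidablePred (· ∈ Vb) := fun x => inferInstanceAs (Decidable (x.a = 0))

theorem card_A0 : Nat.card A0 = 64 := by rw [Nat.card_eq_fintype_card, Fintype.card_subtype]; decide +kernel
theorem card_Va : Nat.card Va = 256 := by rw [Nat.card_eq_fintype_card, Fintype.card_subtype]; decide +kernel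
theorem card_Vb : Nat.card Vb = 256 := by rw [Nat.card_eq_fintype_card, Fintype.card_subtype]; decide +kernel
theorem A0_le_Va : A0 ≤ Va := fun _ h => h.2.1
theorem A0_le_Vb : A0 ≤ Vb := fun _ h => h.1

theorem sq_A0 {x : M9} (h : x ∈ A0) : x * x = 1 := by
  obtain ⟨h1, h2, h3⟩ := h
  ext <;> simp [mul_def, one_def, CharTwo.add_self_eq_zero, *]

theorem sq_mem {x : M9} : x * x ∈ A0 ↔ x.a * x.b = 0 := by
  simp [mem_A0, mul_def, CharTwo.add_self_eq_zero]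

theorem comm_mem {x y : M9} : ⁅x, y⁆ ∈ A0 ↔ x.a * y.b = y.a * x.b := by
  simp only [mem_A0, commutatorElement_def, mul_def, inv_def]
  generalize x.a = a, x.b = b, x.c = c, y.a = a', y.b = b', y.c = c'
  revert a b c a' b' c'
  decide

/-- The commutator of an element of the abelian subgroup with an arbitrary element. -/
theorem comm_A0 {x : M9} (h : x ∈ A0) (y : M9) : ⁅x, y⁆ = ⟨0, x.p * y.a, x.p * y.c + x.q * y.b + x.p * y.a * y.b,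
    y.a * x.v + y.c * x.w, y.b * x.w, 0, 0, 0, 0⟩ := by
  obtain ⟨h1, h2, h3⟩ := h
  ext <;> simp only [commutatorElement_def, mul_def, inv_def, h1, h2, h3, CharTwo.neg_eq, CharTwo.sub_eq_add] <;>
    ring_nf <;> simp [CharTwo.two_eq_zero, show (3 : ZMod 2) = 1 from rfl]

instance normal_A0 : A0.Normal := ⟨fun x h g => by
  obtain ⟨h1, h2, h3⟩ := h
  refine ⟨?_, ?_, ?_⟩ <;> simp only [mul_def, inv_def, h1, h2, h3] <;> ring⟩

theorem comm_mem_A0 {x : M9} (h : x ∈ A0) (y : M9) : ⁅x, y⁆ ∈ A0 := by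
  rw [comm_A0 h]; exact ⟨rfl, rfl, rfl⟩

theorem quad {x y a : M9} (hx : x * x ∈ A0) (hy : y * y ∈ A0) (h : ⁅x, y⁆ ∈ A0) (ha : a ∈ A0) : ⁅⁅a, y⁆, x⁆ = 1 := by
  rw [sq_mem] at hx hy
  rw [comm_mem] at h
  rw [comm_A0 (comm_mem_A0 ha y), comm_A0 ha]
  simp only [one_def, M9.mk.injEq]
  revert hx hy h
  generalize x.a = a1, x.b = b1, x.c = c1, y.a = a2, y.b = b2, a.p = p, a.w = w
  revert a1 b1 c1 a2 b2 p w
  decide +kernel

/-- The commutator formula as a function of the coordinates. -/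
def cf (x : M9) (a b c : ZMod 2) : M9 :=
  ⟨0, x.p * a, x.p * c + x.q * b + x.p * a * b, a * x.v + c * x.w, b * x.w, 0, 0, 0, 0⟩

theorem comm_iff {x : M9} (h : x ∈ A0) (y : M9) : x * y = y * x ↔ cf x y.a y.b y.c = 1 := by
  rw [← commutatorElement_eq_one_iff_mul_comm, comm_A0 h]; rfl

theorem card_inf (x : M9) : Nat.card (A0 ⊓ centralizer {x} : Subgroup M9) =
    (Finset.univ.filter fun y => y ∈ A0 ∧ cf y x.a x.b x.c = 1).card := by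
  rw [← Fintype.card_subtype, ← Nat.card_eq_fintype_card]
  refine Nat.card_congr (Equiv.subtypeEquivRight fun y => ?_)
  rw [mem_inf, mem_centralizer_singleton_iff]
  exact and_congr_right fun h => comm_iff h x

theorem c16 {x : M9} (h : x ∉ A0) (hx : x * x ∈ A0) : Nat.card (A0 ⊓ centralizer {x} : Subgroup M9) = 16 := by
  rw [card_inf]
  rw [sq_mem] at hx
  rw [mem_A0] at h
  revert h hx
  generalize x.a = a, x.b = b, x.c = c
  revert a b c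
  decide +kernel

theorem c16' {x : M9} (h : x ∉ A0) : Nat.card (A0 ⊓ centralizer {x} : Subgroup M9) ≤ 16 := by
  rw [card_inf]
  rw [mem_A0] at h
  revert h
  generalize x.a = a, x.b = b, x.c = c
  revert a b c
  decide +kernel

theorem c8 {x y : M9} (h : x ∉ A0) (h' : y ∉ A0) (e : y * x⁻¹ ∉ A0) :
    Nat.card (A0 ⊓ centralizer {x} ⊓ centralizer {y} : Subgroup M9) ≤ 8 := by
  have : Nat.card (A0 ⊓ centralizer {x} ⊓ centralizer {y} : Subgroup M9) =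
      (Finset.univ.filter fun z => z ∈ A0 ∧ cf z x.a x.b x.c = 1 ∧ cf z y.a y.b y.c = 1).card := by
    rw [← Fintype.card_subtype, ← Nat.card_eq_fintype_card]
    refine Nat.card_congr (Equiv.subtypeEquivRight fun z => ?_)
    rw [mem_inf, mem_inf, mem_centralizer_singleton_iff, mem_centralizer_singleton_iff, and_assoc]
    exact and_congr_right fun h => and_congr (comm_iff h x) (comm_iff h y)
  rw [this]
  simp only [mem_A0, mul_def, inv_def] at h h' e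
  revert h h' e
  generalize x.a = a, x.b = b, x.c = c, y.a = a', y.b = b', y.c = c'
  revert a b c a' b' c'
  decide +kernel

/-- Generators. -/
def gP : M9 := ⟨1, 0, 0, 0, 0, 0, 0, 0, 0⟩
/-- Generators. -/
def gQ : M9 := ⟨0, 1, 0, 0, 0, 0, 0, 0, 0⟩
/-- Generators. -/
def gR : M9 := ⟨0, 0, 1, 0, 0, 0, 0, 0, 0⟩
/-- Generators. -/
def gU : M9 := ⟨0, 0, 0, 1, 0, 0, 0, 0, 0⟩
/-- Generators. -/
def gV : M9 := ⟨0, 0, 0, 0, 1, 0, 0, 0, 0⟩
/-- Generators. -/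
def gW : M9 := ⟨0, 0, 0, 0, 0, 1, 0, 0, 0⟩
/-- Generators. -/
def ga : M9 := ⟨0, 0, 0, 0, 0, 0, 1, 0, 0⟩
/-- Generators. -/
def gb : M9 := ⟨0, 0, 0, 0, 0, 0, 0, 1, 0⟩

theorem two {x : M9} (h : x ∉ A0) : ∃ a ∈ A0, ∃ b ∈ A0, ⁅a, x⁆ ≠ 1 ∧ ⁅b, x⁆ ≠ 1 ∧ ⁅a * b, x⁆ ≠ 1 := by
  have key : ∀ a b c : ZMod 2, ¬ (a = 0 ∧ b = 0 ∧ c = 0) → ∃ y ∈ [gP, gQ], ∃ z ∈ [gV, gW], y ∈ A0 ∧ z ∈ A0 ∧
      cf y a b c ≠ 1 ∧ cf z a b c ≠ 1 ∧ cf (y * z) a b c ≠ 1 := by decide +kernel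
  obtain ⟨y, -, z, -, h1, h2, h3, h4, h5⟩ := key _ _ _ h
  exact ⟨y, h1, z, h2, by rwa [comm_A0 h1], by rwa [comm_A0 h2], by rwa [comm_A0 (mul_mem h1 h2)]⟩

theorem cent {x : M9} (h : ∀ a ∈ A0, a * x = x * a) : x ∈ A0 := by
  by_contra hn
  obtain ⟨a, ha, -, -, h1, -⟩ := two hn
  exact h1 (commutatorElement_eq_one_iff_mul_comm.2 (h a ha))

theorem uniq {B : Subgroup M9} (hc : ∀ x ∈ B, ∀ y ∈ B, x * y = y * x) (h : Nat.card B = 64) : B = A0 := by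
  refine eq_of_le_of_card_ge (fun x hx => by_contra fun hn => ?_) (by rw [h, card_A0])
  have h8 : A0.index = 8 := by
    have := A0.card_mul_index
    rw [card_A0, card_M9] at this
    omega
  have h1 : Nat.card (A0 ⊓ B : Subgroup M9) * A0.relIndex B = 64 := by
    rw [← h, ← inf_relIndex_right, ← Nat.card_congr (subgroupOfEquivOfLe (inf_le_right : A0 ⊓ B ≤ B)).toEquiv]
    exact card_mul_index _
  have h2 : A0.relIndex B ∣ 2 ^ 3 := (relIndex_dvd_index_of_normal A0 B).trans (by rw [h8]; rfl)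
  have h3 : A0.relIndex B ≠ 8 := fun e => by
    have e1 := relIndex_mul_index (le_sup_right : A0 ≤ B ⊔ A0)
    rw [relIndex_sup_right, e, h8] at e1
    have e2 : B ⊔ A0 = ⊤ := index_eq_one.1 (by omega)
    have e3 : ∀ g : M9, ∃ y ∈ B, y.a = g.a ∧ y.b = g.b := fun g => by
      obtain ⟨y, hy, z, hz, rfl⟩ := (mem_sup_of_normal_right).1 (e2 ▸ mem_top g : g ∈ B ⊔ A0)
      exact ⟨y, hy, by simp [mul_def, hz.1], by simp [mul_def, hz.2.1]⟩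
    obtain ⟨y, hy, y1, y2⟩ := e3 ga
    obtain ⟨z, hz, z1, z2⟩ := e3 gb
    have e4 := congrArg M9.c (hc y hy z hz)
    simp only [mul_def, y1, y2, z1, z2, ga, gb, add_comm z.c] at e4
    simp at e4
  have h4 : Nat.card (A0 ⊓ B : Subgroup M9) ≤ 16 := (card_le_of_le (inf_le_inf_left _ fun y hy =>
    mem_centralizer_singleton_iff.2 (hc y hy x hx))).trans (c16' hn)
  obtain ⟨k, hk, e⟩ := (Nat.dvd_prime_pow Nat.prime_two).1 h2
  have h5 : A0.relIndex B = 4 := by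
    rw [e] at h1 h3 ⊢
    interval_cases k <;> omega
  by_cases h6 : ∀ b ∈ B, b * x⁻¹ ∈ A0 ∨ b ∈ A0
  · have := relIndex_eq_two_iff_exists_notMem_and.2 ⟨x⁻¹, inv_mem hx, fun e => hn (inv_mem_iff.1 e), h6⟩
    omega
  · push Not at h6
    obtain ⟨y, hy, y1, y2⟩ := h6
    have h7 : Nat.card (A0 ⊓ B : Subgroup M9) ≤ 8 := (card_le_of_le (le_inf (inf_le_inf_left _ fun z hz =>
      mem_centralizer_singleton_iff.2 (hc z hz x hx)) fun z hz =>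
      mem_centralizer_singleton_iff.2 (hc z hz.2 y hy))).trans (c8 hn y2 y1)
    rw [h5] at h1
    omega

theorem comm_co (s t : M9) : ⁅s, t⁆.a = 0 ∧ ⁅s, t⁆.b = 0 ∧ ⁅s, t⁆.p = 0 ∧ ⁅s, t⁆.w = 0 ∧
    ⁅s, t⁆.c = s.a * t.b - t.a * s.b ∧ ⁅s, t⁆.q = s.p * t.a - t.p * s.a ∧ ⁅s, t⁆.v = s.b * t.w - t.b * s.w := by
  refine ⟨?_, ?_, ?_, ?_, ?_, ?_, ?_⟩ <;> simp only [commutatorElement_def, mul_def, inv_def] <;> ring

theorem ab {x s t : M9} (h : x ∉ A0) (h2 : x * x = 1) (hs : ⁅s, x⁆ ∈ A0) (ht : ⁅t, x⁆ ∈ A0) :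
    ⁅s, t⁆ * x = x * ⁅s, t⁆ ∧ ∀ a ∈ A0, a * x = x * a → a * ⁅s, t⁆ = ⁅s, t⁆ * a := by
  obtain ⟨k1, k2, k3, k4, k5, k6, k7⟩ := comm_co s t
  rw [comm_mem] at hs ht
  have e1 := congrArg M9.c h2
  have e2 := congrArg M9.r h2
  have e3 := congrArg M9.u h2
  simp only [mul_def, one_def, CharTwo.add_self_eq_zero, zero_add] at e1 e2 e3
  rw [mem_A0] at h
  have key : (x.a = 0 ∧ x.b = 0 ∧ x.c = 1 ∧ x.p = 0 ∧ x.w = 0) ∨
      (⁅s, t⁆.c = 0 ∧ ⁅s, t⁆.q * x.b = 0 ∧ x.a * ⁅s, t⁆.v = 0) := by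
    rw [k5, k6, k7]
    have z : ∀ a : ZMod 2, a = 0 ∨ a = 1 := by decide
    rcases z x.a with a0 | a0
    · rcases z x.b with b0 | b0
      · have c0 : x.c = 1 := (z x.c).resolve_left fun e => h ⟨a0, b0, e⟩
        simp only [a0, b0, c0, mul_zero, zero_mul, mul_one, one_mul, add_zero, zero_add] at e2 e3
        exact .inl ⟨a0, b0, c0, e2, e3⟩
      · simp only [a0, b0, zero_mul, mul_one] at hs ht
        simp [a0, hs, ht]
    · have b0 : x.b = 0 := by simpa [a0] using e1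
      simp only [a0, b0, mul_zero, one_mul] at hs ht
      simp [b0, ← hs, ← ht]
  clear k5 k6 k7
  generalize ⁅s, t⁆ = k at *
  rcases key with ⟨j1, j2, j3, j4, j5⟩ | ⟨j1, j2, j3⟩
  · refine ⟨by ext <;> simp only [mul_def, *] <;> ring, fun a ha e => ?_⟩
    rw [comm_iff ha] at e ⊢
    simp only [cf, one_def, M9.mk.injEq, *] at e ⊢
    simp_all
  · refine ⟨?_, fun a ha _ => ?_⟩
    · ext <;> simp only [mul_def, k1, k2, k3, k4, j1, j2, j3] <;> ring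
    · rw [comm_iff ha]
      simp [cf, one_def, *]

theorem inj {s t : M9} (hs : s * s ∈ A0) (ht : t * t ∈ A0) (h1 : ∀ a ∈ A0, ∃ b ∈ A0, ⁅a, s⁆ = ⁅b, t⁆)
    (h2 : ∀ a ∈ A0, ∃ b ∈ A0, ⁅a, t⁆ = ⁅b, s⁆) : s * t⁻¹ ∈ A0 := by
  have key : ∀ {s t : M9}, (∀ a ∈ A0, ∃ b ∈ A0, ⁅a, s⁆ = ⁅b, t⁆) →
      (∃ p q, s.a = p * t.a ∧ s.c + s.a * s.b = p * t.c + q * t.b + p * t.a * t.b) ∧
      ∃ v w, s.c = t.a * v + t.c * w ∧ s.b = t.b * w := fun {s t} h => by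
    obtain ⟨b, hb, e⟩ := h gP (by decide)
    obtain ⟨c, hc, e'⟩ := h gW (by decide)
    rw [comm_A0 hb, comm_A0 (by decide)] at e
    rw [comm_A0 hc, comm_A0 (by decide)] at e'
    simp only [gP, gW, M9.mk.injEq] at e e'
    exact ⟨⟨b.p, b.q, by simpa using e.2.1, by simpa using e.2.2.1⟩,
      c.v, c.w, by simpa using e'.2.2.2.1, by simpa using e'.2.2.2.2.1⟩
  have k1 := key h1
  have k2 := key h2
  rw [sq_mem] at hs ht
  simp only [mem_A0, mul_def, inv_def]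
  revert hs ht k1 k2
  generalize s.a = a, s.b = b, s.c = c, t.a = a', t.b = b', t.c = c'
  revert a b c a' b' c'
  decide +kernel

theorem mid {v w a : M9} (hv : v * v ∈ A0) (h : v ∉ A0) (hw : w * w ∈ A0) (hc : ⁅v, w⁆ ∈ A0) (ha : a ∈ A0)
    (e : a * v = v * a) : ∃ b ∈ A0, ⁅a, w⁆ = ⁅b, v⁆ := by
  have key : ∀ a b c a' b' c' p q v w : ZMod 2, a * b = 0 → ¬ (a = 0 ∧ b = 0 ∧ c = 0) → a' * b' = 0 →
      a * b' = a' * b → cf ⟨p, q, 0, 0, v, w, 0, 0, 0⟩ a b c = 1 → ∃ p' q' v' w' : ZMod 2,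
      cf ⟨p, q, 0, 0, v, w, 0, 0, 0⟩ a' b' c' = cf ⟨p', q', 0, 0, v', w', 0, 0, 0⟩ a b c := by decide +kernel
  obtain ⟨p', q', v', w', e1⟩ := key _ _ _ _ _ _ a.p a.q a.v a.w (sq_mem.1 hv) h (sq_mem.1 hw) (comm_mem.1 hc)
    ((comm_iff ha v).1 e)
  refine ⟨⟨p', q', 0, 0, v', w', 0, 0, 0⟩, ⟨rfl, rfl, rfl⟩, ?_⟩
  rw [comm_A0 ha, comm_A0 ⟨rfl, rfl, rfl⟩]
  exact e1

theorem dec (m : M9) : ∃ x ∈ Va, ∃ y ∈ Vb, m = x * y :=
  ⟨m * (⟨0, 0, 0, 0, 0, 0, 0, m.b, 0⟩ : M9)⁻¹, show _ + _ = 0 from add_neg_cancel _,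
    ⟨0, 0, 0, 0, 0, 0, 0, m.b, 0⟩, rfl, (inv_mul_cancel_right _ _).symm⟩

theorem Va_sq {x : M9} (h : x ∈ Va) : x * x ∈ A0 := sq_mem.2 (by rw [show x.b = 0 from h, mul_zero])
theorem Vb_sq {x : M9} (h : x ∈ Vb) : x * x ∈ A0 := sq_mem.2 (by rw [show x.a = 0 from h, zero_mul])
theorem Va_comm {x y : M9} (h : x ∈ Va) (h' : y ∈ Va) : ⁅x, y⁆ ∈ A0 :=
  comm_mem.2 (by rw [show x.b = 0 from h, show y.b = 0 from h', mul_zero, mul_zero])
theorem Vb_comm {x y : M9} (h : x ∈ Vb) (h' : y ∈ Vb) : ⁅x, y⁆ ∈ A0 :=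
  comm_mem.2 (by rw [show x.a = 0 from h, show y.a = 0 from h', zero_mul, zero_mul])

/-- A power with exponent in the field. -/
def pw (t : ZMod 2) (x : M9) : M9 := if t = 0 then 1 else x

theorem basis {m : M9} (h : m ∈ A0) :
    m = pw m.p gP * (pw m.q gQ * (pw m.r gR * (pw m.u gU * (pw m.v gV * pw m.w gW)))) := by
  obtain ⟨p, q, r, u, v, w, a, b, c⟩ := m
  obtain ⟨rfl, rfl, rfl⟩ : a = 0 ∧ b = 0 ∧ c = 0 := h
  revert p q r u v w
  decide +kernel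

theorem fin (σ : M9 → M9) (h0 : ∀ m ∈ A0, σ m ∈ A0) (hm : ∀ m ∈ A0, ∀ n ∈ A0, σ (m * n) = σ m * σ n)
    (h1 : ∀ m ∈ A0, σ m = 1 → m = 1) (hc : ∀ m ∈ A0, ∀ s, σ ⁅m, s⁆ = ⁅σ m, s⁆) :
    ∀ m ∈ A0, σ (σ (σ (σ m))) = m := by
  have e1 : σ 1 = 1 := by simpa using hm 1 (one_mem _) 1 (one_mem _)
  have hp : ∀ t x, σ (pw t x) = pw t (σ x) := fun t x => by unfold pw; split_ifs <;> simp [e1]
  have hA : ∀ t, ∀ x ∈ A0, pw t x ∈ A0 := fun t x hx => by unfold pw; split_ifs <;> simp [one_mem, hx]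
  have mP : gP ∈ A0 := by decide
  have mQ : gQ ∈ A0 := by decide
  have mR : gR ∈ A0 := by decide
  have mU : gU ∈ A0 := by decide
  have mV : gV ∈ A0 := by decide
  have mW : gW ∈ A0 := by decide
  have eQ : σ gQ = ⁅σ gP, ga⁆ := hc gP mP ga
  have eR : σ gR = ⁅σ gQ, gb⁆ := hc gQ mQ gb
  have eV : σ gV = ⁅σ gW, gb⁆ := hc gW mW gb
  have eU : σ gU = ⁅σ gV, ga⁆ := hc gV mV ga
  have eP : σ 1 = ⁅σ gP, gb⁆ := hc gP mP gb
  have eW : σ 1 = ⁅σ gW, ga⁆ := hc gW mW ga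
  have nR : σ gR ≠ 1 := fun e => absurd (h1 _ mR e) (by decide)
  have nU : σ gU ≠ 1 := fun e => absurd (h1 _ mU e) (by decide)
  have hσ : ∀ m ∈ A0, σ m = pw m.p (σ gP) * (pw m.q (σ gQ) * (pw m.r (σ gR) * (pw m.u (σ gU) *
      (pw m.v (σ gV) * pw m.w (σ gW))))) := fun m h => by
    conv_lhs => rw [basis h]
    have a5 := mul_mem (hA m.v _ mV) (hA m.w _ mW)
    have a4 := mul_mem (hA m.u _ mU) a5
    have a3 := mul_mem (hA m.r _ mR) a4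
    have a2 := mul_mem (hA m.q _ mQ) a3
    rw [hm _ (hA _ _ mP) _ a2, hm _ (hA _ _ mQ) _ a3, hm _ (hA _ _ mR) _ a4, hm _ (hA _ _ mU) _ a5,
      hm _ (hA _ _ mV) _ (hA _ _ mW)]
    simp only [hp]
  rw [eQ] at eR
  rw [eV] at eU
  rw [eR] at nR
  rw [eU] at nU
  rw [e1] at eP eW
  rw [eQ, eR, eU, eV] at hσ
  have kP : ∀ x ∈ A0, 1 = ⁅x, gb⁆ → ⁅⁅x, ga⁆, gb⁆ ≠ 1 → ∃ r u v, x = ⟨1, 0, r, u, v, 0, 0, 0, 0⟩ := by decide +kernel
  have kW : ∀ x ∈ A0, 1 = ⁅x, ga⁆ → ⁅⁅x, gb⁆, ga⁆ ≠ 1 → ∃ q r u, x = ⟨0, q, r, u, 0, 1, 0, 0, 0⟩ := by decide +kernel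
  obtain ⟨r1, u1, v1, e2⟩ := kP _ (h0 _ mP) eP nR
  obtain ⟨q2, r2, u2, e3⟩ := kW _ (h0 _ mW) eW nU
  rw [e2, e3] at hσ
  have hL : ∀ m ∈ A0, σ m = ⟨m.p, m.q + m.w * q2, m.r + m.p * r1 + m.w * r2 + m.v * q2,
      m.u + m.p * u1 + m.q * v1 + m.w * u2, m.v + m.p * v1, m.w, 0, 0, 0⟩ := fun m h => by
    rw [hσ m h]
    generalize m.p = p, m.q = q, m.r = r, m.u = u, m.v = v, m.w = w
    clear * -
    revert p q r u v w r1 u1 v1 q2 r2 u2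
    decide +kernel
  intro m h
  rw [hL _ (h0 _ (h0 _ (h0 _ h))), hL _ (h0 _ (h0 _ h)), hL _ (h0 _ h), hL _ h]
  obtain ⟨k1, k2, k3⟩ := h
  ext <;> simp only [k1, k2, k3] <;> ring_nf <;>
    simp [show (4 : ZMod 2) = 0 from rfl, show (6 : ZMod 2) = 0 from rfl]

end M9

end Cfsg.Agent.GC
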